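import Mathlib

/-!
# `S₄ → A₆`, the stabiliser of the duad `{4, 5}` (for H930, `3·A₆` has no 12-dimensional representation)
-/

set_option autoImplicit false

namespace Cfsg.Agent.H269.ThreeA6

open Equiv

/-- the sign as a permutation of two points -/
def sgn2 : ℤˣ →* Perm (Fin 2) where
  toFun u := if u = 1 then 1 else swap 0 1
  map_one' := by decide
  map_mul' := by decide

theorem sign_sgn2 : ∀ u : ℤˣ, Perm.sign (sgn2 u) = u := by decide

theorem sgn2_sign : ∀ y : Perm (Fin 2), sgn2 (Perm.sign y) = y := by decide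

/-- `x ↦ x (4 5)^sgn x` -/
def eps : Perm (Fin 4) →* Perm (Fin 6) where
  toFun x := (finSumFinEquiv (m := 4) (n := 2)).permCongr (Perm.sumCongr x (sgn2 (Perm.sign x)))
  map_one' := by
    rw [Perm.sign_one, map_one, Perm.sumCongr_one]
    exact Equiv.permCongr_refl _
  map_mul' x y := by
    rw [Perm.sign_mul, map_mul, ← Perm.sumCongr_mul]
    exact (Equiv.permCongrHom (finSumFinEquiv (m := 4) (n := 2))).map_mul _ _

theorem eps_apply (x : Perm (Fin 4)) :
    eps x = (finSumFinEquiv (m := 4) (n := 2)).permCongr (Perm.sumCongr x (sgn2 (Perm.sign x))) := rfl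

theorem eps_mem (x : Perm (Fin 4)) : eps x ∈ alternatingGroup (Fin 6) := by
  rw [Perm.mem_alternatingGroup, eps_apply, Perm.sign_permCongr, Perm.sign_sumCongr, sign_sgn2]
  exact Int.units_mul_self _

theorem eps_injective : Function.Injective eps := by
  intro x y hxy
  rw [eps_apply, eps_apply] at hxy
  have h1 := (finSumFinEquiv (m := 4) (n := 2)).permCongr.injective hxy
  ext i
  have h2 := congrArg (fun s : Perm (Fin 4 ⊕ Fin 2) => s (Sum.inl i)) h1
  simp only [Perm.sumCongr_apply, Sum.map_inl, Sum.inl.injEq] at h2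
  exact congrArg Fin.val h2

theorem eps_test : eps (swap 0 1) = swap 0 1 * swap 4 5 := by decide

/-- the stabiliser of `{4, 5}` in `A₆` -/
theorem exists_eps {r : Perm (Fin 6)} (hr : r ∈ alternatingGroup (Fin 6)) (h4 : r 4 = 4 ∨ r 4 = 5) (h5 : r 5 = 4 ∨ r 5 = 5) :
    ∃ x, eps x = r := by
  let s : Perm (Fin 4 ⊕ Fin 2) := (finSumFinEquiv (m := 4) (n := 2)).symm.permCongr r
  have hs : (finSumFinEquiv (m := 4) (n := 2)).permCongr s = r := by
    ext i; simp [s]
  have h1 : Set.MapsTo s (Set.range Sum.inr) (Set.range Sum.inr) := by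
    rintro _ ⟨i, rfl⟩
    have h2 : ∀ k : Fin 6, k = 4 ∨ k = 5 → (finSumFinEquiv (m := 4) (n := 2)).symm k ∈ Set.range (Sum.inr : Fin 2 → Fin 4 ⊕ Fin 2) := by
      rintro k (rfl | rfl)
      · exact ⟨0, rfl⟩
      · exact ⟨1, rfl⟩
    have h3 : s (Sum.inr i) = (finSumFinEquiv (m := 4) (n := 2)).symm (r (finSumFinEquiv (m := 4) (n := 2) (Sum.inr i))) := rfl
    rw [h3]
    apply h2
    fin_cases i
    · exact h4
    · exact h5
  rw [← Perm.perm_mapsTo_inl_iff_mapsTo_inr] at h1
  obtain ⟨⟨x, y⟩, hxy⟩ := Perm.mem_sumCongrHom_range_of_perm_mapsTo_inl h1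
  have hxy' : Perm.sumCongr x y = s := hxy
  have hsign : Perm.sign x * Perm.sign y = 1 := by
    rw [Perm.mem_alternatingGroup, ← hs, Perm.sign_permCongr, ← hxy', Perm.sign_sumCongr] at hr
    exact hr
  have hy : Perm.sign x = Perm.sign y := by
    rw [mul_eq_one_iff_eq_inv] at hsign
    rw [hsign, Int.units_inv_eq_self]
  refine ⟨x, ?_⟩
  rw [eps_apply, hy, sgn2_sign, hxy', hs]

theorem eps_four (x : Perm (Fin 4)) : (eps x 4 = 4 ∨ eps x 4 = 5) ∧ (eps x 5 = 4 ∨ eps x 5 = 5) := by
  revert x; decide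

/-- the generators -/
theorem closure_eq_top : Subgroup.closure ({swap 0 1, swap 1 2, swap 2 3} : Set (Perm (Fin 4))) = ⊤ := by
  rw [eq_top_iff]
  have h1 := Perm.mclosure_swap_castSucc_succ 3
  intro x _
  have h2 : x ∈ Submonoid.closure (Set.range fun i : Fin 3 => swap i.castSucc i.succ) := by
    rw [h1]; exact Submonoid.mem_top _
  have h3 : Submonoid.closure (Set.range fun i : Fin 3 => swap i.castSucc i.succ) ≤
      (Subgroup.closure ({swap 0 1, swap 1 2, swap 2 3} : Set (Perm (Fin 4)))).toSubmonoid := by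
    rw [Submonoid.closure_le]
    rintro _ ⟨i, rfl⟩
    apply Subgroup.subset_closure
    fin_cases i
    · left; rfl
    · right; left; rfl
    · right; right; rfl
  exact h3 h2

end Cfsg.Agent.H269.ThreeA6
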