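import Cfsg.Agent.H269.ThreeA6.Eps
import Cfsg.Agent.H930.SixBase
import Cfsg.Agent.Classification.TitsFin.Coxeter

/-!
# The complement over the stabiliser of a duad in `3·A₆`

* `exists_psi` : `ψ : S₄ →* G` with `φ ∘ ψ = eps`;
* `exists_space` : the space on which a finite group acts by a sign character, its dimension.
-/

set_option autoImplicit false
set_option linter.unusedSectionVars false

universe u v

namespace Cfsg.Agent.H269.ThreeA6

open Cfsg Cfsg.Geo Matrix Equiv Cfsg.Agent.H915.LD Cfsg.Agent.H930.Six

variable {ι : Type} [Fintype ι] [DecidableEq ι] {F : Type u} [Field F] {G : Type v} [Group G]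
variable {m : G →* GL ι F} {φ : G →* Perm (Fin 6)}

theorem card_closure_three {G : Type*} [Group G] [Finite G] {a b c : G}
    (ha : a * a = 1) (hb : b * b = 1) (hc : c * c = 1)
    (hab : a * b * a = b * a * b) (hbc : b * c * b = c * b * c) (hac : a * c = c * a) :
    Nat.card (Subgroup.closure ({a, b, c} : Set G)) ≤ 24 := by
  have k1 : Nat.card (Subgroup.closure ({a} : Set G)) ≤ 2 * Nat.card (⊥ : Subgroup G) := by
    refine Classification.TitsFin.Coxeter.card_le ⊥ _ ?_ ![1, a] 0 rfl ?_
    · intro s hs; rw [Set.mem_singleton_iff] at hs; rw [hs]; exact ha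
    · intro i s hs
      rw [Set.mem_singleton_iff] at hs
      subst hs
      fin_cases i
      · exact ⟨1, 1, one_mem _, by simp⟩
      · exact ⟨0, 1, one_mem _, by simpa using ha⟩
  have k2 : Nat.card (Subgroup.closure ({a, b} : Set G)) ≤ 3 * Nat.card (Subgroup.closure ({a} : Set G)) := by
    have mA : a ∈ Subgroup.closure ({a} : Set G) := Subgroup.subset_closure rfl
    refine Classification.TitsFin.Coxeter.card_le _ _ ?_ ![1, b, b * a] 0 rfl ?_
    · rintro s (rfl | hs)
      · exact ha
      · rw [Set.mem_singleton_iff] at hs; rw [hs]; exact hb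
    · intro i s hs
      have hs' : s = a ∨ s = b := by simpa using hs
      fin_cases i
      · rcases hs' with rfl | rfl
        · exact ⟨0, _, mA, by simp⟩
        · exact ⟨1, 1, one_mem _, by simp⟩
      · rcases hs' with rfl | rfl
        · exact ⟨2, 1, one_mem _, by simp⟩
        · exact ⟨0, 1, one_mem _, by simpa using hb⟩
      · rcases hs' with rfl | rfl
        · exact ⟨1, 1, one_mem _, by simp [mul_assoc, ha]⟩
        · exact ⟨2, _, mA, by simp [← mul_assoc, hab]⟩
  have k3 : Nat.card (Subgroup.closure ({a, b, c} : Set G)) ≤ 4 * Nat.card (Subgroup.closure ({a, b} : Set G)) := by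
    have mA : a ∈ Subgroup.closure ({a, b} : Set G) := Subgroup.subset_closure (by simp)
    have mB : b ∈ Subgroup.closure ({a, b} : Set G) := Subgroup.subset_closure (by simp)
    refine Classification.TitsFin.Coxeter.card_le _ _ ?_ ![1, c, c * b, c * b * a] 0 rfl ?_
    · rintro s (rfl | rfl | hs)
      · exact ha
      · exact hb
      · rw [Set.mem_singleton_iff] at hs; rw [hs]; exact hc
    · intro i s hs
      have hs' : s = a ∨ s = b ∨ s = c := by simpa using hs
      fin_cases i
      · rcases hs' with rfl | rfl | rfl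
        · exact ⟨0, _, mA, by simp⟩
        · exact ⟨0, _, mB, by simp⟩
        · exact ⟨1, 1, one_mem _, by simp⟩
      · rcases hs' with rfl | rfl | rfl
        · exact ⟨1, _, mA, by simpa using hac.symm⟩
        · exact ⟨2, 1, one_mem _, by simp⟩
        · exact ⟨0, 1, one_mem _, by simpa using hc⟩
      · rcases hs' with rfl | rfl | rfl
        · exact ⟨3, 1, one_mem _, by simp⟩
        · exact ⟨1, 1, one_mem _, by simp [mul_assoc, hb]⟩
        · refine ⟨2, _, mB, ?_⟩
          show s * b * s = b * (s * b)
          rw [← hbc]; group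
      · rcases hs' with rfl | rfl | rfl
        · exact ⟨2, 1, one_mem _, by simp [mul_assoc, ha]⟩
        · refine ⟨3, _, mA, ?_⟩
          show c * s * a * s = a * (c * s * a)
          calc c * s * a * s = c * (s * a * s) := by group
            _ = c * (a * s * a) := by rw [hab]
            _ = (c * a) * s * a := by group
            _ = (a * c) * s * a := by rw [hac]
            _ = a * (c * s * a) := by group
        · refine ⟨3, _, mB, ?_⟩
          show s * b * a * s = b * (s * b * a)
          calc s * b * a * s = s * b * (a * s) := by group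
            _ = s * b * (s * a) := by rw [hac]
            _ = (s * b * s) * a := by group
            _ = (b * s * b) * a := by rw [hbc]
            _ = b * (s * b * a) := by group
  rw [Subgroup.card_bot] at k1
  omega

/-- **The complement.** -/
theorem exists_psi [Finite G] (h : Cov m φ) (hc : Nat.card φ.ker = 3) :
    ∃ ψ : Perm (Fin 4) →* G, ∀ x, φ (ψ x) = eps x := by
  have sq : ∀ x : Perm (Fin 4), x * x = 1 → eps x * eps x = 1 := by
    intro x hx; rw [← map_mul, hx, map_one]
  obtain ⟨a, ha, haa⟩ := h.exists_inv hc (eps_mem (swap 0 1)) (sq _ (by decide))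
  obtain ⟨b, hb, hbb⟩ := h.exists_inv hc (eps_mem (swap 1 2)) (sq _ (by decide))
  obtain ⟨c, hcc, hccc⟩ := h.exists_inv hc (eps_mem (swap 2 3)) (sq _ (by decide))
  have conj_sq : ∀ {x y : G}, x * x = 1 → y * y = 1 → x * y * x * (x * y * x) = 1 := by
    intro x y hx hy
    calc x * y * x * (x * y * x) = x * y * (x * x) * y * x := by group
      _ = x * (y * y) * x := by rw [hx]; group
      _ = 1 := by rw [hy, mul_one, hx]
  have hab : a * b * a = b * a * b := by
    refine h.inv_unique hc ?_ (conj_sq haa hbb) (conj_sq hbb haa)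
    rw [map_mul, map_mul, map_mul, map_mul, ha, hb, ← map_mul, ← map_mul, ← map_mul, ← map_mul]
    congr 1
    decide
  have hbc : b * c * b = c * b * c := by
    refine h.inv_unique hc ?_ (conj_sq hbb hccc) (conj_sq hccc hbb)
    rw [map_mul, map_mul, map_mul, map_mul, hb, hcc, ← map_mul, ← map_mul, ← map_mul, ← map_mul]
    congr 1
    decide
  have hac : a * c = c * a := by
    refine h.inv_comm hc hccc ?_
    rw [ha, hcc, ← map_mul, ← map_mul]
    congr 1
    decide
  obtain ⟨S, hS⟩ : ∃ S : Subgroup G, S = Subgroup.closure ({a, b, c} : Set G) := ⟨_, rfl⟩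
  have hS24 : Nat.card S ≤ 24 := by rw [hS]; exact card_closure_three haa hbb hccc hab hbc hac
  have hle : eps.range ≤ S.map φ := by
    rw [MonoidHom.range_eq_map, ← closure_eq_top, MonoidHom.map_closure, Subgroup.closure_le]
    rintro _ ⟨x, hx, rfl⟩
    rcases hx with rfl | rfl | rfl
    · exact ⟨a, by rw [hS]; exact Subgroup.subset_closure (by simp), ha⟩
    · exact ⟨b, by rw [hS]; exact Subgroup.subset_closure (by simp), hb⟩
    · exact ⟨c, by rw [hS]; exact Subgroup.subset_closure (by simp), hcc⟩
  have hr : Nat.card eps.range = 24 := by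
    rw [Nat.card_congr (MonoidHom.ofInjective eps_injective).symm.toEquiv, Nat.card_eq_fintype_card]
    decide
  have hm : 24 ≤ Nat.card (S.map φ) := by
    rw [← hr]; exact Subgroup.card_le_of_le hle
  let f : S →* S.map φ := φ.subgroupMap S
  have hf : Function.Surjective f := φ.subgroupMap_surjective S
  have hbij : Function.Bijective f := by
    rw [Nat.bijective_iff_surjective_and_card]
    refine ⟨hf, le_antisymm (hS24.trans hm) ?_⟩
    exact Nat.card_le_card_of_surjective f hf
  let e : S ≃* S.map φ := MulEquiv.ofBijective f hbij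
  let g : Perm (Fin 4) →* S.map φ := eps.codRestrict (S.map φ) (fun x => hle ⟨x, rfl⟩)
  refine ⟨S.subtype.comp (e.symm.toMonoidHom.comp g), fun x => ?_⟩
  have h1 : e (e.symm (g x)) = g x := e.apply_symm_apply _
  exact congrArg Subtype.val h1

/-- the space on which `H` acts by a sign character -/
theorem exists_space {H : Type} [Group H] [Fintype H] (θ : H →* G) (χ : H →* ℤˣ) (hH : (Fintype.card H : F) ≠ 0)
    (m : G →* GL ι F) : ∃ E : Submodule F (ι → F),
      (∀ v, v ∈ E ↔ ∀ x, (m (θ x) : Matrix ι ι F) *ᵥ v = (((χ x : ℤˣ) : ℤ) : F) • v) ∧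
      (Module.finrank F E : F) * (Fintype.card H : F) = ∑ x, (((χ x : ℤˣ) : ℤ) : F) * tr (m (θ x)) := by
  have hχ : ∀ x y : H, (((χ (x * y) : ℤˣ) : ℤ) : F) = (((χ x : ℤˣ) : ℤ) : F) * (((χ y : ℤˣ) : ℤ) : F) := by
    intro x y; rw [map_mul, Units.val_mul]; push_cast; ring
  have hχ2 : ∀ x : H, (((χ x : ℤˣ) : ℤ) : F) * (((χ x : ℤˣ) : ℤ) : F) = 1 := by
    intro x
    rcases Int.units_eq_one_or (χ x) with h | h <;> rw [h] <;> norm_num
  let ρ : Representation F H (ι → F) :=
    { toFun := fun x => (((χ x : ℤˣ) : ℤ) : F) • Matrix.toLin' (m (θ x) : Matrix ι ι F)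
      map_one' := by
        rw [map_one, map_one, map_one, Units.val_one, Units.val_one]
        simp
        rfl
      map_mul' := fun x y => by
        rw [hχ, map_mul, map_mul, Units.val_mul, Matrix.toLin'_mul]
        refine LinearMap.ext fun v => ?_
        show ((((χ x : ℤˣ) : ℤ) : F) * (((χ y : ℤˣ) : ℤ) : F)) • (Matrix.toLin' (m (θ x) : Matrix ι ι F))
          (Matrix.toLin' (m (θ y) : Matrix ι ι F) v) = (((χ x : ℤˣ) : ℤ) : F) • (Matrix.toLin' (m (θ x) : Matrix ι ι F))
          ((((χ y : ℤˣ) : ℤ) : F) • (Matrix.toLin' (m (θ y) : Matrix ι ι F) v))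
        rw [map_smul, smul_smul] }
  have hρ : ∀ x v, ρ x v = (((χ x : ℤˣ) : ℤ) : F) • ((m (θ x) : Matrix ι ι F) *ᵥ v) := fun x v => rfl
  have hinv : Invertible (Fintype.card H : F) := invertibleOfNonzero hH
  have hproj := Representation.isProj_averageMap ρ
  refine ⟨ρ.invariants, fun v => ?_, ?_⟩
  · rw [Representation.mem_invariants]
    refine forall_congr' fun x => ?_
    rw [hρ]
    constructor
    · intro h
      rw [← h, smul_smul, hχ2, one_smul, h]
    · intro h
      rw [h, smul_smul, hχ2, one_smul]
  · have h1 := hproj.trace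
    have h2 : Representation.averageMap ρ = ⅟(Fintype.card H : F) • ∑ x, ρ x := by
      rw [Representation.averageMap, GroupAlgebra.average, map_smul, map_sum]
      simp only [Representation.asAlgebraHom_single_one, MonoidAlgebra.of_apply]
    rw [h2, map_smul, map_sum, smul_eq_mul] at h1
    have h3 : ∀ x, LinearMap.trace F (ι → F) (ρ x) = (((χ x : ℤˣ) : ℤ) : F) * tr (m (θ x)) := by
      intro x
      show LinearMap.trace F (ι → F) ((((χ x : ℤˣ) : ℤ) : F) • Matrix.toLin' (m (θ x) : Matrix ι ι F)) = _
      rw [map_smul, Matrix.trace_toLin'_eq, smul_eq_mul]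
      rfl
    rw [← h1, Finset.sum_congr rfl (fun x _ => h3 x), mul_comm, ← mul_assoc, mul_invOf_self, one_mul]

end Cfsg.Agent.H269.ThreeA6
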