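import Cfsg.Agent.H269.ThreeA6.Sums

/-!
# Multiplicities of the linear characters; no sign vector
-/

set_option autoImplicit false
set_option linter.unusedSectionVars false

universe u v

namespace Cfsg.Agent.H269.ThreeA6

open Cfsg Cfsg.Geo Matrix Equiv Cfsg.Agent.H915.LD Cfsg.Agent.H930.Six

variable {ι : Type} [Fintype ι] [DecidableEq ι] {F : Type u} [Field F] {G : Type v} [Group G]
variable {m : G →* GL ι F} {φ : G →* Perm (Fin 6)}

/-- elements over the range of `eps` -/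
theorem exists_scal_psi (h : Cov m φ) {ψ : Perm (Fin 4) →* G} (hψ : ∀ x, φ (ψ x) = eps x) {y : G} {x : Perm (Fin 4)}
    (hy : φ y = eps x) : ∃ (k : G) (c : F), φ k = 1 ∧ y = k * ψ x ∧ (m k : Matrix ι ι F) = c • (1 : Matrix ι ι F) ∧
      (m y : Matrix ι ι F) = c • (m (ψ x) : Matrix ι ι F) := by
  have hk : φ (y * (ψ x)⁻¹) = 1 := by rw [map_mul, map_inv, hy, hψ, mul_inv_cancel]
  obtain ⟨c, hc⟩ := h.scal hk
  refine ⟨y * (ψ x)⁻¹, c, hk, by group, hc, ?_⟩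
  have h1 : m y = m (y * (ψ x)⁻¹) * m (ψ x) := by rw [← map_mul]; congr 1; group
  rw [h1, Units.val_mul, hc, Matrix.smul_mul, one_mul]

/-- **Lemma B for the sign characters.** -/
theorem bound [Finite G] (h : Cov m φ) {ψ : Perm (Fin 4) →* G} (hψ : ∀ x, φ (ψ x) = eps x)
    {H : Type} [Group H] (θ : H →* Perm (Fin 4)) (χ : H →* ℤˣ) (E : Submodule F (ι → F))
    (hE : ∀ v, v ∈ E ↔ ∀ x, (m ((ψ.comp θ) x) : Matrix ι ι F) *ᵥ v = (((χ x : ℤˣ) : ℤ) : F) • v) :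
    Module.finrank F E * Fintype.card ι ≤ ((eps.comp θ).range).relIndex (alternatingGroup (Fin 6)) := by
  classical
  rw [← h.index_comap]
  have h1 : ∀ y : G, ∃ s : F, y ∈ ((eps.comp θ).range).comap φ → ∀ v ∈ E, (m y : Matrix ι ι F) *ᵥ v = s • v := by
    intro y
    by_cases hy : y ∈ ((eps.comp θ).range).comap φ
    · obtain ⟨x, hx⟩ := hy
      obtain ⟨k, c, -, -, -, hc⟩ := exists_scal_psi h hψ (x := θ x) hx.symm
      refine ⟨c * (((χ x : ℤˣ) : ℤ) : F), fun _ v hv => ?_⟩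
      have h2 := (hE v).1 hv x
      rw [hc, Matrix.smul_mulVec, mul_smul]
      congr 1
    · exact ⟨0, fun h2 => absurd h2 hy⟩
  choose s hs using h1
  exact h.lemmaB _ s E (fun y hy v hv => hs y hy v hv)

theorem relIndex_of_card {T : Subgroup (Perm (Fin 6))} {n k : ℕ} (hT : T ≤ alternatingGroup (Fin 6))
    (hn : Nat.card T = n) (hk : n * k = 360) : T.relIndex (alternatingGroup (Fin 6)) = k := by
  have h1 := (T.subgroupOf (alternatingGroup (Fin 6))).card_mul_index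
  rw [Nat.card_congr (Subgroup.subgroupOfEquivOfLe hT).toEquiv, hn, card_alt6] at h1
  change n * T.relIndex (alternatingGroup (Fin 6)) = 360 at h1
  have hn0 : 0 < n := by
    rcases Nat.eq_zero_or_pos n with h0 | h0
    · rw [h0, zero_mul] at hk; omega
    · exact h0
  exact Nat.eq_of_mul_eq_mul_left hn0 (h1.trans hk.symm)

theorem range_le {H : Type} [Group H] (θ : H →* Perm (Fin 4)) : (eps.comp θ).range ≤ alternatingGroup (Fin 6) := by
  rintro _ ⟨x, rfl⟩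
  exact eps_mem _

theorem relIndex_full : ((eps.comp (MonoidHom.id (Perm (Fin 4)))).range).relIndex (alternatingGroup (Fin 6)) = 15 := by
  refine relIndex_of_card (range_le _) (n := 24) ?_ rfl
  rw [Nat.card_congr (MonoidHom.ofInjective (f := eps.comp (MonoidHom.id (Perm (Fin 4)))) eps_injective).symm.toEquiv,
    Nat.card_eq_fintype_card]
  decide

theorem relIndex_D8 : ((eps.comp D8.subtype).range).relIndex (alternatingGroup (Fin 6)) = 45 := by
  refine relIndex_of_card (range_le _) (n := 8) ?_ rfl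
  rw [Nat.card_congr (MonoidHom.ofInjective (f := eps.comp D8.subtype)
    (eps_injective.comp Subtype.val_injective)).symm.toEquiv, Nat.card_eq_fintype_card, card_D8]

theorem cast_ne_zero {p : ℕ} [Fact p.Prime] [CharP F p] {n : ℕ} (h : ¬ p ∣ n) : (n : F) ≠ 0 := fun h1 =>
  h ((CharP.cast_eq_zero_iff F p n).1 h1)

theorem prime_not_dvd {p : ℕ} (hp : p.Prime) (h5 : 5 ≤ p) (a b : ℕ) : ¬ p ∣ 2 ^ a * 3 ^ b := by
  intro h
  rcases hp.dvd_mul.1 h with h1 | h1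
  · have := Nat.le_of_dvd (by norm_num) (hp.dvd_of_dvd_pow h1)
    omega
  · have := Nat.le_of_dvd (by norm_num) (hp.dvd_of_dvd_pow h1)
    omega

/-- **The multiplicities.** Either the sign character or the trivial character occurs (and in the second case the
trace of the involutions vanishes). -/
theorem cases [Finite G] (h : Cov m φ) (p : ℕ) [hp : Fact p.Prime] [CharP F p] (hp5 : 5 ≤ p) (hc : Nat.card φ.ker = 3)
    (hn : Fintype.card ι = 12) {ψ : Perm (Fin 4) →* G} (hψ : ∀ x, φ (ψ x) = eps x) :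
    (∃ v : ι → F, v ≠ 0 ∧ ∀ x, (m (ψ x) : Matrix ι ι F) *ᵥ v = (((Perm.sign x : ℤˣ) : ℤ) : F) • v) ∨
    ((∃ v : ι → F, v ≠ 0 ∧ ∀ x, (m (ψ x) : Matrix ι ι F) *ᵥ v = v) ∧ tr (m (ψ (swap 0 1))) = 0) := by
  have c24 : (Fintype.card (Perm (Fin 4)) : F) = 24 := by
    rw [show Fintype.card (Perm (Fin 4)) = 24 by decide]; norm_num
  have n24 : (24 : F) ≠ 0 := by
    have := cast_ne_zero (F := F) (p := p) (n := 24) (prime_not_dvd hp.out hp5 3 1)
    exact_mod_cast this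
  have n8 : (8 : F) ≠ 0 := by
    have := cast_ne_zero (F := F) (p := p) (n := 8) (prime_not_dvd hp.out hp5 3 0)
    exact_mod_cast this
  have n6 : (6 : F) ≠ 0 := by
    have := cast_ne_zero (F := F) (p := p) (n := 6) (prime_not_dvd hp.out hp5 1 1)
    exact_mod_cast this
  obtain ⟨E1, hE1, hs1⟩ := exists_space (F := F) ψ 1 (by rw [c24]; exact n24) m
  obtain ⟨E2, hE2, hs2⟩ := exists_space (F := F) ψ Perm.sign (by rw [c24]; exact n24) m
  obtain ⟨E3, hE3, hs3⟩ := exists_space (F := F) (ψ.comp D8.subtype) chi3 (by rw [card_D8]; exact_mod_cast n8) m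
  rw [sum_triv h hc hψ, c24, hn] at hs1
  rw [sum_sign h hc hψ, c24, hn] at hs2
  rw [sum_D8 h hc hψ, card_D8, hn] at hs3
  have b1 := bound h hψ (MonoidHom.id (Perm (Fin 4))) 1 E1 hE1
  have b2 := bound h hψ (MonoidHom.id (Perm (Fin 4))) Perm.sign E2 hE2
  have b3 := bound h hψ D8.subtype chi3 E3 hE3
  rw [relIndex_full, hn] at b1 b2
  rw [relIndex_D8, hn] at b3
  have e1 : Module.finrank F E1 = 0 ∨ Module.finrank F E1 = 1 := by omega
  have e2 : Module.finrank F E2 = 0 ∨ Module.finrank F E2 = 1 := by omega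
  have e3 : Module.finrank F E3 ≤ 3 := by omega
  obtain ⟨j, hj⟩ : ∃ j, j = tr (m (ψ (swap 0 1))) := ⟨_, rfl⟩
  obtain ⟨c, hcc⟩ : ∃ c, c = tr (m (ψ c[0, 2, 1, 3])) := ⟨_, rfl⟩
  obtain ⟨r, hr⟩ : ∃ r, r = Module.finrank F E3 := ⟨_, rfl⟩
  rw [← hj] at hs1 hs2 hs3 ⊢
  rw [← hcc] at hs1 hs2 hs3
  rw [← hr] at hs3 e3
  have hvec : ∀ E : Submodule F (ι → F), Module.finrank F E = 1 → ∃ v ∈ E, v ≠ 0 := by
    intro E hE
    have h1 : E ≠ ⊥ := by
      rintro rfl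
      rw [finrank_bot] at hE
      omega
    obtain ⟨v, hv, hv0⟩ := Submodule.exists_mem_ne_zero_of_ne_bot h1
    exact ⟨v, hv, hv0⟩
  push_cast at hs1 hs2 hs3
  rcases e2 with e2 | e2
  · rw [e2] at hs2
    rcases e1 with e1 | e1
    · -- (0, 0)
      exfalso
      rw [e1] at hs1
      have hj4 : j = -4 := by
        have : (6 : F) * (j + 4) = 0 := by push_cast at hs1 hs2; linear_combination -hs1 - hs2
        exact eq_neg_of_add_eq_zero_left ((mul_eq_zero.1 this).resolve_left n6)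
      have hc4 : c = 4 := by
        have : (6 : F) * (c - 4) = 0 := by push_cast at hs1 hs2; rw [hj4] at hs1; linear_combination -hs1
        exact sub_eq_zero.1 ((mul_eq_zero.1 this).resolve_left n6)
      have h8 : ((4 - r : ℕ) : F) = 0 := by
        rw [Nat.cast_sub (by omega)]
        have : (8 : F) * (((4 : ℕ) : F) - (r : F)) = 0 := by
          rw [hj4, hc4] at hs3
          push_cast
          linear_combination -hs3
        exact (mul_eq_zero.1 this).resolve_left n8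
      refine cast_ne_zero (F := F) (p := p) (fun h9 => ?_) h8
      have := Nat.le_of_dvd (by omega) h9
      omega
    · -- (1, 0)
      right
      rw [e1] at hs1
      have hj0 : j = 0 := by
        have : (6 : F) * j = 0 := by push_cast at hs1 hs2; linear_combination -hs1 - hs2
        exact (mul_eq_zero.1 this).resolve_left n6
      obtain ⟨v, hv, hv0⟩ := hvec E1 e1
      refine ⟨⟨v, hv0, fun x => ?_⟩, hj0⟩
      have := (hE1 v).1 hv x
      simpa using this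
  · left
    obtain ⟨v, hv, hv0⟩ := hvec E2 e2
    exact ⟨v, hv0, (hE2 v).1 hv⟩

/-! ### double cosets -/

def pi1 : Perm (Fin 6) := swap 0 4 * swap 1 5

def pi2 : Perm (Fin 6) := c[3, 4, 5]

theorem pi_cases : ∀ a b : Fin 6, a ≠ b → ((a = 4 ∨ a = 5) ∧ (b = 4 ∨ b = 5)) ∨ ∃ x : Perm (Fin 4),
    (((eps x * pi1)⁻¹ a = 4 ∨ (eps x * pi1)⁻¹ a = 5) ∧ ((eps x * pi1)⁻¹ b = 4 ∨ (eps x * pi1)⁻¹ b = 5)) ∨
    (((eps x * pi2)⁻¹ a = 4 ∨ (eps x * pi2)⁻¹ a = 5) ∧ ((eps x * pi2)⁻¹ b = 4 ∨ (eps x * pi2)⁻¹ b = 5)) := by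
  decide

theorem pi1_mem : pi1 ∈ alternatingGroup (Fin 6) := Perm.mem_alternatingGroup.2 (by decide)

theorem pi2_mem : pi2 ∈ alternatingGroup (Fin 6) := Perm.mem_alternatingGroup.2 (by decide)

theorem double_coset {r : Perm (Fin 6)} (hr : r ∈ alternatingGroup (Fin 6)) (hne : ∀ x, eps x ≠ r) :
    ∃ x y : Perm (Fin 4), r = eps x * pi1 * eps y ∨ r = eps x * pi2 * eps y := by
  have key : ∀ s : Perm (Fin 6), s ∈ alternatingGroup (Fin 6) → ((s⁻¹ (r 4) = 4 ∨ s⁻¹ (r 4) = 5) ∧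
      (s⁻¹ (r 5) = 4 ∨ s⁻¹ (r 5) = 5)) → ∃ y, r = s * eps y := by
    intro s hs hh
    obtain ⟨y, hy⟩ := exists_eps (r := s⁻¹ * r) (mul_mem (inv_mem hs) hr) hh.1 hh.2
    exact ⟨y, by rw [hy]; group⟩
  rcases pi_cases (r 4) (r 5) (fun h => by have := r.injective h; revert this; decide) with h1 | ⟨x, h1 | h1⟩
  · exfalso
    obtain ⟨x, hx⟩ := exists_eps hr h1.1 h1.2
    exact hne x hx
  · obtain ⟨y, hy⟩ := key (eps x * pi1) (mul_mem (eps_mem x) pi1_mem) h1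
    exact ⟨x, y, Or.inl hy⟩
  · obtain ⟨y, hy⟩ := key (eps x * pi2) (mul_mem (eps_mem x) pi2_mem) h1
    exact ⟨x, y, Or.inr hy⟩

/-- **No sign vector.** -/
theorem no_sign [Finite G] (h : Cov m φ) (p : ℕ) [hp : Fact p.Prime] [CharP F p] (hp5 : 5 ≤ p) (hc : Nat.card φ.ker = 3)
    (hn : Fintype.card ι = 12) {ψ : Perm (Fin 4) →* G} (hψ : ∀ x, φ (ψ x) = eps x) {v : ι → F} (hv0 : v ≠ 0)
    (hv : ∀ x, (m (ψ x) : Matrix ι ι F) *ᵥ v = (((Perm.sign x : ℤˣ) : ℤ) : F) • v) : False := by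
  classical
  have h2 : (2 : F) ≠ 0 := by
    have := cast_ne_zero (F := F) (p := p) (n := 2) (prime_not_dvd hp.out hp5 1 0)
    exact_mod_cast this
  have hne1 : (-1 : F) ≠ 1 := by
    intro h1
    apply h2
    have : (1 : F) + 1 = 0 := by nth_rewrite 1 [← h1]; ring
    rw [← this]; norm_num
  obtain ⟨Y, hY⟩ : ∃ Y : Subgroup G, Y = ((eps.comp (MonoidHom.id (Perm (Fin 4)))).range).comap φ := ⟨_, rfl⟩
  have hYmem : ∀ y, y ∈ Y ↔ ∃ x, eps x = φ y := by
    intro y; rw [hY]; exact Iff.rfl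
  have hYi : Y.index = 15 := by rw [hY, h.index_comap, relIndex_full]
  have h1 : ∀ y : G, ∃ s : F, y ∈ Y → (m y : Matrix ι ι F) *ᵥ v = s • v := by
    intro y
    by_cases hy : y ∈ Y
    · obtain ⟨x, hx⟩ := (hYmem y).1 hy
      obtain ⟨k, c, -, -, -, hc⟩ := exists_scal_psi h hψ (x := x) hx.symm
      refine ⟨c * (((Perm.sign x : ℤˣ) : ℤ) : F), fun _ => ?_⟩
      rw [hc, Matrix.smul_mulVec, mul_smul, hv]
    · exact ⟨0, fun h2 => absurd h2 hy⟩
  choose χ hχ using h1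
  have huniq : ∀ y ∈ Y, ∀ c : F, (m y : Matrix ι ι F) *ᵥ v = c • v → χ y = c := by
    intro y hy c hcy
    have h3 := hχ y hy
    rw [hcy] at h3
    have h4 : (c - χ y) • v = 0 := by rw [sub_smul, h3, sub_self]
    exact (sub_eq_zero.1 ((smul_eq_zero.1 h4).resolve_right hv0)).symm
  have hψY : ∀ x, ψ x ∈ Y := fun x => (hYmem _).2 ⟨x, (hψ x).symm⟩
  have hχψ : ∀ x, χ (ψ x) = (((Perm.sign x : ℤˣ) : ℤ) : F) := fun x => huniq _ (hψY x) _ (hv x)
  have hmul : ∀ a ∈ Y, ∀ b ∈ Y, χ (a * b) = χ a * χ b := by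
    intro a ha b hb
    apply huniq _ (mul_mem ha hb)
    rw [map_mul, Units.val_mul, ← Matrix.mulVec_mulVec, hχ b hb, Matrix.mulVec_smul, hχ a ha, smul_smul, mul_comm]
  have hone : χ 1 = 1 := by
    apply huniq _ (one_mem _)
    rw [map_one, Units.val_one, Matrix.one_mulVec, one_smul]
  have hconj : ∀ s ∈ Y, ∀ y ∈ Y, χ (s * y * s⁻¹) = χ y := by
    intro s hs y hy
    have h3 : χ s * χ s⁻¹ = 1 := by rw [← hmul s hs _ (inv_mem hs), mul_inv_cancel, hone]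
    rw [hmul _ (mul_mem hs hy) _ (inv_mem hs), hmul s hs y hy]
    calc χ s * χ y * χ s⁻¹ = χ y * (χ s * χ s⁻¹) := by ring
      _ = χ y := by rw [h3, mul_one]
  have hcardY : (Nat.card Y : F) ≠ 0 := by
    have h3 := Y.card_mul_index
    rw [hYi] at h3
    have h4 : Nat.card G = 3 * 360 := by
      have h5 := φ.ker.card_mul_index
      rw [hc, Subgroup.index_ker, h.range, card_alt6] at h5
      exact h5.symm
    rw [h4] at h3
    have h5 : Nat.card Y = 2 ^ 3 * 3 ^ 2 := by omega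
    rw [h5]
    exact cast_ne_zero (F := F) (p := p) (prime_not_dvd hp.out hp5 3 2)
  have hfin := lemmaH (m := m) Y χ hv0 hcardY hχ ?_
  · rw [hYi, hn] at hfin
    omega
  -- the condition on the double cosets
  have hinv : ∀ g s s' : G, s ∈ Y → s' ∈ Y → (∃ y ∈ Y, g⁻¹ * y * g ∈ Y ∧ χ y ≠ χ (g⁻¹ * y * g)) →
      ∃ y ∈ Y, (s * g * s')⁻¹ * y * (s * g * s') ∈ Y ∧ χ y ≠ χ ((s * g * s')⁻¹ * y * (s * g * s')) := by
    rintro g s s' hs hs' ⟨y, hy, hy1, hy2⟩
    refine ⟨s * y * s⁻¹, mul_mem (mul_mem hs hy) (inv_mem hs), ?_, ?_⟩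
    · have e : (s * g * s')⁻¹ * (s * y * s⁻¹) * (s * g * s') = s'⁻¹ * (g⁻¹ * y * g) * s'⁻¹⁻¹ := by group
      rw [e]
      exact mul_mem (mul_mem (inv_mem hs') hy1) (inv_mem (inv_mem hs'))
    · have e : (s * g * s')⁻¹ * (s * y * s⁻¹) * (s * g * s') = s'⁻¹ * (g⁻¹ * y * g) * s'⁻¹⁻¹ := by group
      rw [e, hconj s hs y hy, hconj _ (inv_mem hs') _ hy1]
      exact hy2
  have hp1 : ∀ g, φ g = pi1 → ∃ y ∈ Y, g⁻¹ * y * g ∈ Y ∧ χ y ≠ χ (g⁻¹ * y * g) := by
    intro g hg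
    have e : g⁻¹ * ψ (swap 2 3) * g⁻¹⁻¹ = ψ (swap 0 1 * swap 2 3) := by
      refine h.inv_conj hc ?_ ?_ ?_
      · rw [← map_mul, show (swap 2 3 : Perm (Fin 4)) * swap 2 3 = 1 by decide, map_one]
      · rw [← map_mul, show (swap 0 1 * swap 2 3 : Perm (Fin 4)) * (swap 0 1 * swap 2 3) = 1 by decide, map_one]
      · rw [map_inv, hg, hψ, hψ]
        decide
    rw [inv_inv] at e
    refine ⟨ψ (swap 2 3), hψY _, ?_, ?_⟩
    · rw [e]; exact hψY _
    · rw [e, hχψ, hχψ, show Perm.sign (swap 2 3 : Perm (Fin 4)) = -1 by decide,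
        show Perm.sign (swap 0 1 * swap 2 3 : Perm (Fin 4)) = 1 by decide]
      simpa using hne1
  have hp2 : ∀ g, φ g = pi2 → ∃ y ∈ Y, g⁻¹ * y * g ∈ Y ∧ χ y ≠ χ (g⁻¹ * y * g) := by
    intro g hg
    have hy : φ (ψ c[0, 1, 2]) = c[0, 1, 2] := by rw [hψ]; decide
    have hnc := h.nc (by rw [hc]) hy hg
    obtain ⟨k, hk⟩ : ∃ k, k = g⁻¹ * ψ c[0, 1, 2] * g * (ψ c[0, 1, 2])⁻¹ := ⟨_, rfl⟩
    have hk1 : φ k = 1 := by
      rw [hk, map_mul, map_mul, map_mul, map_inv, map_inv, hy, hg]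
      decide
    have hkne : k ≠ 1 := by
      intro h3
      apply hnc
      rw [hk, mul_inv_eq_one, mul_assoc, inv_mul_eq_iff_eq_mul] at h3
      exact h3
    have hkY : k ∈ Y := (hYmem _).2 ⟨1, by rw [map_one, hk1]⟩
    have e : g⁻¹ * ψ c[0, 1, 2] * g = k * ψ c[0, 1, 2] := by rw [hk]; group
    refine ⟨ψ c[0, 1, 2], hψY _, ?_, ?_⟩
    · rw [e]; exact mul_mem hkY (hψY _)
    · rw [e, hmul _ hkY _ (hψY _), hχψ, show Perm.sign (c[0, 1, 2] : Perm (Fin 4)) = 1 by decide]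
      intro h3
      obtain ⟨c, hcc⟩ := h.scal hk1
      have h4 : χ k = (c : F) := by
        apply huniq _ hkY
        rw [hcc, Matrix.smul_mulVec, Matrix.one_mulVec]
      rw [h4] at h3
      have h5 : (c : F) = 1 := by simpa using h3.symm
      rw [h5] at hcc
      exact hkne (h.eq_one_of_scal hcc)
  intro g hg
  have hgne : ∀ x, eps x ≠ φ g := fun x hx => hg ((hYmem g).2 ⟨x, hx⟩)
  obtain ⟨x, y, hxy⟩ := double_coset (h.sign g) hgne
  obtain ⟨g', hg'⟩ : ∃ g', g' = (ψ x)⁻¹ * g * (ψ y)⁻¹ := ⟨_, rfl⟩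
  have e : g = ψ x * g' * ψ y := by rw [hg']; group
  rw [e]
  apply hinv _ _ _ (hψY x) (hψY y)
  rcases hxy with hxy | hxy
  · apply hp1
    rw [hg', map_mul, map_mul, map_inv, map_inv, hψ, hψ, hxy]; group
  · apply hp2
    rw [hg', map_mul, map_mul, map_inv, map_inv, hψ, hψ, hxy]; group

end Cfsg.Agent.H269.ThreeA6
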