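import Cfsg.Agent.H269.ThreeA6.Lift

/-!
# Traces on the complement, dimensions of the spaces of linear characters
-/

set_option autoImplicit false
set_option linter.unusedSectionVars false

universe u v

namespace Cfsg.Agent.H269.ThreeA6

open Cfsg Cfsg.Geo Matrix Equiv Cfsg.Agent.H915.LD Cfsg.Agent.H930.Six

variable {ι : Type} [Fintype ι] [DecidableEq ι] {F : Type u} [Field F] {G : Type v} [Group G]
variable {m : G →* GL ι F} {φ : G →* Perm (Fin 6)}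

theorem tr_psi_conj (ψ : Perm (Fin 4) →* G) (g x : Perm (Fin 4)) : tr (m (ψ (g * x * g⁻¹))) = tr (m (ψ x)) := by
  rw [map_mul, map_mul, map_inv, map_mul, map_mul, map_inv, tr_conj]

theorem tr_one' : tr (m 1) = (Fintype.card ι : F) := by
  rw [map_one]
  show Matrix.trace (1 : Matrix ι ι F) = _
  rw [Matrix.trace_one]

/-- the classes of `S₄` -/
def kap (x : Perm (Fin 4)) : Fin 5 :=
  if x = 1 then 0 else if x * x = 1 then (if Perm.sign x = 1 then 1 else 2) else if x * x * x = 1 then 3 else 4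

theorem kap_card : ∀ k : Fin 5, (Finset.univ.filter fun x : Perm (Fin 4) => kap x = k).card = ![1, 3, 6, 8, 6] k := by
  decide

theorem traces [Finite G] (h : Cov m φ) (hc : Nat.card φ.ker = 3) {ψ : Perm (Fin 4) →* G} (hψ : ∀ x, φ (ψ x) = eps x) :
    ∀ x, tr (m (ψ x)) = ![(Fintype.card ι : F), tr (m (ψ (swap 0 1))), tr (m (ψ (swap 0 1))), 0,
      tr (m (ψ c[0, 2, 1, 3]))] (kap x) := by
  have d1 : ∀ x : Perm (Fin 4), kap x = 0 → x = 1 := by decide
  have d2 : ∀ x : Perm (Fin 4), kap x = 1 → ∃ g, x = g * (swap 0 1 * swap 2 3) * g⁻¹ := by decide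
  have d3 : ∀ x : Perm (Fin 4), kap x = 2 → ∃ g, x = g * swap 0 1 * g⁻¹ := by decide
  have d4 : ∀ x : Perm (Fin 4), kap x = 3 → x ^ 3 = 1 ∧ x ≠ 1 := by decide
  have d5 : ∀ x : Perm (Fin 4), kap x = 4 → ∃ g, x = g * c[0, 2, 1, 3] * g⁻¹ := by decide
  intro x
  obtain ⟨k, hk⟩ : ∃ k, k = kap x := ⟨_, rfl⟩
  rw [← hk]
  fin_cases k
  · have h1 := d1 x hk.symm
    rw [h1, map_one]
    exact tr_one'
  · obtain ⟨g, rfl⟩ := d2 x hk.symm
    rw [tr_psi_conj]
    show _ = tr (m (ψ (swap 0 1)))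
    obtain ⟨s, hs⟩ := h.surj (s := swap 2 4 * swap 3 5) (Perm.mem_alternatingGroup.2 (by decide))
    have h1 : s * ψ (swap 0 1) * s⁻¹ = ψ (swap 0 1 * swap 2 3) := by
      refine h.inv_conj hc ?_ ?_ ?_
      · rw [← map_mul, show (swap 0 1 : Perm (Fin 4)) * swap 0 1 = 1 by decide, map_one]
      · rw [← map_mul, show (swap 0 1 * swap 2 3 : Perm (Fin 4)) * (swap 0 1 * swap 2 3) = 1 by decide, map_one]
      · rw [hs, hψ, hψ]
        decide
    rw [← h1, map_mul, map_mul, map_inv, tr_conj]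
  · obtain ⟨g, rfl⟩ := d3 x hk.symm
    rw [tr_psi_conj]
    rfl
  · obtain ⟨h1, h2⟩ := d4 x hk.symm
    refine h.tr_three (by rw [hc]) ?_ ?_
    · rw [hψ, ← map_pow, h1, map_one]
    · rw [hψ]
      intro h3
      exact h2 (eps_injective (h3.trans (map_one eps).symm))
  · obtain ⟨g, rfl⟩ := d5 x hk.symm
    rw [tr_psi_conj]
    rfl

/-- sums over the classes -/
theorem sum_kap (f : Fin 5 → F) : ∑ x : Perm (Fin 4), f (kap x) = f 0 + 3 * f 1 + 6 * f 2 + 8 * f 3 + 6 * f 4 := by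
  rw [← Finset.sum_fiberwise_of_maps_to (g := kap) (t := Finset.univ) (fun _ _ => Finset.mem_univ _)]
  have h1 : ∀ k : Fin 5, ∑ x ∈ Finset.univ.filter (fun x : Perm (Fin 4) => kap x = k), f (kap x) =
      ((![1, 3, 6, 8, 6] k : ℕ) : F) * f k := by
    intro k
    rw [Finset.sum_congr rfl (g := fun _ => f k) (fun x hx => by rw [(Finset.mem_filter.1 hx).2]), Finset.sum_const,
      kap_card, nsmul_eq_mul]
  rw [Finset.sum_congr rfl (fun k _ => h1 k), Fin.sum_univ_five]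
  simp

theorem sum_triv [Finite G] (h : Cov m φ) (hc : Nat.card φ.ker = 3) {ψ : Perm (Fin 4) →* G} (hψ : ∀ x, φ (ψ x) = eps x) :
    ∑ x, ((((1 : Perm (Fin 4) →* ℤˣ) x : ℤˣ) : ℤ) : F) * tr (m (ψ x)) =
      (Fintype.card ι : F) + 9 * tr (m (ψ (swap 0 1))) + 6 * tr (m (ψ c[0, 2, 1, 3])) := by
  rw [Finset.sum_congr rfl (fun x _ => by rw [traces h hc hψ x])]
  simp only [MonoidHom.one_apply, Units.val_one, Int.cast_one, one_mul]
  rw [sum_kap]
  simp
  ring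

theorem sign_kap : ∀ x : Perm (Fin 4), Perm.sign x = ![1, 1, -1, 1, -1] (kap x) := by decide

theorem sum_sign [Finite G] (h : Cov m φ) (hc : Nat.card φ.ker = 3) {ψ : Perm (Fin 4) →* G} (hψ : ∀ x, φ (ψ x) = eps x) :
    ∑ x, (((Perm.sign x : ℤˣ) : ℤ) : F) * tr (m (ψ x)) =
      (Fintype.card ι : F) - 3 * tr (m (ψ (swap 0 1))) - 6 * tr (m (ψ c[0, 2, 1, 3])) := by
  rw [Finset.sum_congr rfl (fun x _ => by rw [traces h hc hψ x, sign_kap x])]
  rw [sum_kap (fun k => (((![1, 1, -1, 1, -1] k : ℤˣ) : ℤ) : F) * ![(Fintype.card ι : F), tr (m (ψ (swap 0 1))), tr (m (ψ (swap 0 1))), 0,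
      tr (m (ψ c[0, 2, 1, 3]))] k)]
  simp
  ring

/-- the dihedral group of order 8 -/
def D8 : Subgroup (Perm (Fin 4)) where
  carrier := {x | x * (swap 0 1 * swap 2 3) = (swap 0 1 * swap 2 3) * x}
  mul_mem' := by
    intro a b ha hb
    show a * b * (swap 0 1 * swap 2 3) = (swap 0 1 * swap 2 3) * (a * b)
    rw [mul_assoc, show b * (swap 0 1 * swap 2 3) = (swap 0 1 * swap 2 3) * b from hb, ← mul_assoc,
      show a * (swap 0 1 * swap 2 3) = (swap 0 1 * swap 2 3) * a from ha, mul_assoc]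
  one_mem' := by
    show 1 * (swap 0 1 * swap 2 3) = (swap 0 1 * swap 2 3) * 1
    rw [one_mul, mul_one]
  inv_mem' := by
    intro a ha
    show a⁻¹ * (swap 0 1 * swap 2 3) = (swap 0 1 * swap 2 3) * a⁻¹
    rw [inv_mul_eq_iff_eq_mul, ← mul_assoc, eq_mul_inv_iff_mul_eq]
    exact (show a * (swap 0 1 * swap 2 3) = (swap 0 1 * swap 2 3) * a from ha).symm

instance : DecidablePred (· ∈ D8) := fun x => decEq (x * (swap 0 1 * swap 2 3)) ((swap 0 1 * swap 2 3) * x)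

theorem card_D8 : Fintype.card D8 = 8 := by decide

/-- the linear character with `C ↦ 1`, reflections `↦ -1` -/
def chi3 : D8 →* ℤˣ where
  toFun x := if (x : Perm (Fin 4)) * c[0, 2, 1, 3] = c[0, 2, 1, 3] * (x : Perm (Fin 4)) then 1 else -1
  map_one' := by decide
  map_mul' := by decide

/-- classes of `D8` -/
def kap3 (x : D8) : Fin 4 :=
  if (x : Perm (Fin 4)) = 1 then 0 else if (x : Perm (Fin 4)) = swap 0 1 * swap 2 3 then 1 else
    if (x : Perm (Fin 4)) * x = 1 then 2 else 3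

theorem kap3_card : ∀ k : Fin 4, (Finset.univ.filter fun x : D8 => kap3 x = k).card = ![1, 1, 4, 2] k := by
  decide

theorem chi3_kap : ∀ x : D8, chi3 x = ![1, 1, -1, 1] (kap3 x) := by decide

theorem kap_kap3 : ∀ x : D8, (kap3 x = 0 → kap x = 0) ∧ (kap3 x = 1 → kap x = 1) ∧ (kap3 x = 2 → kap x = 1 ∨ kap x = 2) ∧
    (kap3 x = 3 → kap x = 4) := by decide

theorem sum_D8 [Finite G] (h : Cov m φ) (hc : Nat.card φ.ker = 3) {ψ : Perm (Fin 4) →* G} (hψ : ∀ x, φ (ψ x) = eps x) :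
    ∑ x : D8, (((chi3 x : ℤˣ) : ℤ) : F) * tr (m ((ψ.comp D8.subtype) x)) =
      (Fintype.card ι : F) - 3 * tr (m (ψ (swap 0 1))) + 2 * tr (m (ψ c[0, 2, 1, 3])) := by
  have h0 : ∀ x : D8, tr (m ((ψ.comp D8.subtype) x)) = ![(Fintype.card ι : F), tr (m (ψ (swap 0 1))), tr (m (ψ (swap 0 1))),
      tr (m (ψ c[0, 2, 1, 3]))] (kap3 x) := by
    intro x
    show tr (m (ψ (x : Perm (Fin 4)))) = _
    rw [traces h hc hψ]
    obtain ⟨h1, h2, h3, h4⟩ := kap_kap3 x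
    obtain ⟨k, hk⟩ : ∃ k, k = kap3 x := ⟨_, rfl⟩
    rw [← hk] at h1 h2 h3 h4 ⊢
    fin_cases k
    · rw [h1 rfl]; rfl
    · rw [h2 rfl]; rfl
    · rcases h3 rfl with h5 | h5 <;> rw [h5] <;> rfl
    · rw [h4 rfl]; rfl
  rw [Finset.sum_congr rfl (fun x _ => by rw [h0 x, chi3_kap x])]
  rw [← Finset.sum_fiberwise_of_maps_to (g := kap3) (t := Finset.univ) (fun _ _ => Finset.mem_univ _)]
  obtain ⟨f, hf⟩ : ∃ f : Fin 4 → F, f = fun k => (((![1, 1, -1, 1] k : ℤˣ) : ℤ) : F) * ![(Fintype.card ι : F), tr (m (ψ (swap 0 1))), tr (m (ψ (swap 0 1))),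
      tr (m (ψ c[0, 2, 1, 3]))] k := ⟨_, rfl⟩
  have h1 : ∀ k : Fin 4, ∑ x ∈ Finset.univ.filter (fun x : D8 => kap3 x = k), (((![1, 1, -1, 1] (kap3 x) : ℤˣ) : ℤ) : F) *
      ![(Fintype.card ι : F), tr (m (ψ (swap 0 1))), tr (m (ψ (swap 0 1))), tr (m (ψ c[0, 2, 1, 3]))] (kap3 x) =
      ((![1, 1, 4, 2] k : ℕ) : F) * f k := by
    intro k
    rw [Finset.sum_congr rfl (g := fun _ => f k) (fun x hx => by rw [(Finset.mem_filter.1 hx).2, hf]), Finset.sum_const,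
      kap3_card, nsmul_eq_mul]
  rw [Finset.sum_congr rfl (fun k _ => h1 k), Fin.sum_univ_four, hf]
  simp
  ring

end Cfsg.Agent.H269.ThreeA6
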