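import Cfsg.Agent.H269.ThreeA6.Sign

/-!
# No vector fixed by the complement: the relation module of the 15 translates
-/

set_option autoImplicit false
set_option linter.unusedSectionVars false

universe u v

namespace Cfsg.Agent.H269.ThreeA6

open Cfsg Cfsg.Geo Matrix Equiv Cfsg.Agent.H915.LD Cfsg.Agent.H930.Six
open scoped commutatorElement

/-- the duads -/
abbrev Duad := {d : Finset (Fin 6) // d.card = 2}

def act (s : Perm (Fin 6)) (d : Duad) : Duad := ⟨d.1.map s.toEmbedding, by rw [Finset.card_map]; exact d.2⟩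

theorem act_one (d : Duad) : act 1 d = d := by
  apply Subtype.ext
  exact Finset.map_refl

theorem act_mul (s t : Perm (Fin 6)) (d : Duad) : act (s * t) d = act s (act t d) := by
  apply Subtype.ext
  show d.1.map (s * t).toEmbedding = (d.1.map t.toEmbedding).map s.toEmbedding
  rw [Finset.map_map]
  rfl

def d0 : Duad := ⟨{4, 5}, by decide⟩

theorem exists_eps' {r : Perm (Fin 6)} (hr : r ∈ alternatingGroup (Fin 6)) (h : act r d0 = d0) : ∃ x, eps x = r := by
  have h1 : ({4, 5} : Finset (Fin 6)).map r.toEmbedding = {4, 5} := congrArg Subtype.val h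
  have h2 : ∀ k, k ∈ ({4, 5} : Finset (Fin 6)) → r k = 4 ∨ r k = 5 := by
    intro k hk
    have h3 : r k ∈ ({4, 5} : Finset (Fin 6)).map r.toEmbedding := Finset.mem_map_of_mem r.toEmbedding hk
    rw [h1] at h3
    simpa using h3
  exact exists_eps hr (h2 4 (by decide)) (h2 5 (by decide))

theorem act_eps : ∀ x, act (eps x) d0 = d0 := by decide

theorem trans_aux : ∀ d : Duad, act 1 d0 = d ∨ ∃ x : Perm (Fin 4), act (eps x * pi1) d0 = d ∨ act (eps x * pi2) d0 = d := by
  decide

theorem act_trans (d : Duad) : ∃ s ∈ alternatingGroup (Fin 6), act s d0 = d := by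
  rcases trans_aux d with h | ⟨x, h | h⟩
  · exact ⟨1, one_mem _, h⟩
  · exact ⟨_, mul_mem (eps_mem x) pi1_mem, h⟩
  · exact ⟨_, mul_mem (eps_mem x) pi2_mem, h⟩

theorem card_duad : Fintype.card Duad = 15 := by decide

theorem fixed_three : (Finset.univ.filter fun d : Duad => d = act (eps (swap 0 1)) d).card = 3 := by decide

variable {ι : Type} [Fintype ι] [DecidableEq ι] {F : Type u} [Field F] {G : Type v} [Group G]
variable {m : G →* GL ι F} {φ : G →* Perm (Fin 6)}

/-- a multiple of an idempotent with trace zero and small rank vanishes -/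
theorem eq_zero_of_idem {κ : Type} [Fintype κ] [DecidableEq κ] (p : ℕ) [hp : Fact p.Prime] [CharP F p] (h5 : 5 ≤ p)
    {B : Matrix ι κ F} {D : Matrix κ κ F} (hDD : D * D = (2 : F) • D) (htr : D.trace = 0) (hBD : B * D = 0)
    (hker : Module.finrank F (LinearMap.ker (Matrix.toLin' B)) ≤ 3) : D = 0 := by
  have h2 : (2 : F) ≠ 0 := by
    have := cast_ne_zero (F := F) (p := p) (n := 2) (prime_not_dvd hp.out h5 1 0)
    exact_mod_cast this
  obtain ⟨K, hK⟩ : ∃ K : Matrix κ κ F, K = (2 : F)⁻¹ • D := ⟨_, rfl⟩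
  have hKK : K * K = K := by
    rw [hK, Matrix.smul_mul, Matrix.mul_smul, hDD, smul_smul, smul_smul, mul_assoc, inv_mul_cancel₀ h2, mul_one]
  have hKt : K.trace = 0 := by rw [hK, Matrix.trace_smul, htr, smul_zero]
  have hBK : B * K = 0 := by rw [hK, Matrix.mul_smul, hBD, smul_zero]
  let f : (κ → F) →ₗ[F] (κ → F) := Matrix.toLin' K
  have hproj : LinearMap.IsProj (LinearMap.range f) f := by
    refine ⟨fun x => ⟨x, rfl⟩, ?_⟩
    rintro _ ⟨x, rfl⟩
    show Matrix.toLin' K (Matrix.toLin' K x) = Matrix.toLin' K x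
    rw [← Matrix.toLin'_mul_apply, hKK]
  have h1 := hproj.trace
  have h3 : LinearMap.trace F (κ → F) f = 0 := by
    show LinearMap.trace F (κ → F) (Matrix.toLin' K) = 0
    rw [Matrix.trace_toLin'_eq, hKt]
  rw [h3] at h1
  have hle : LinearMap.range f ≤ LinearMap.ker (Matrix.toLin' B) := by
    rintro _ ⟨x, rfl⟩
    rw [LinearMap.mem_ker]
    show Matrix.toLin' B (Matrix.toLin' K x) = 0
    rw [← Matrix.toLin'_mul_apply, hBK]
    simp
  have h4 : Module.finrank F (LinearMap.range f) ≤ 3 := (Submodule.finrank_mono hle).trans hker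
  have h6 : Module.finrank F (LinearMap.range f) = 0 := by
    by_contra h7
    refine cast_ne_zero (F := F) (p := p) (fun h9 => ?_) h1.symm
    have := Nat.le_of_dvd (Nat.pos_of_ne_zero h7) h9
    omega
  have h7 : f = 0 := by
    rw [← LinearMap.range_eq_bot]
    exact Submodule.finrank_eq_zero.1 h6
  have h8 : K = 0 := by
    have h9 : Matrix.toLin' K = Matrix.toLin' 0 := by
      rw [map_zero]; exact h7
    exact Matrix.toLin'.injective h9
  rw [hK] at h8
  exact (smul_eq_zero.1 h8).resolve_left (inv_ne_zero h2)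

/-- **No fixed vector** (if the trace of the involutions vanishes). -/
theorem no_triv [Finite G] (h : Cov m φ) (p : ℕ) [hp : Fact p.Prime] [CharP F p] (hp5 : 5 ≤ p) (hc : Nat.card φ.ker = 3)
    (hn : Fintype.card ι = 12) {ψ : Perm (Fin 4) →* G} (hψ : ∀ x, φ (ψ x) = eps x) {v : ι → F} (hv0 : v ≠ 0)
    (hv : ∀ x, (m (ψ x) : Matrix ι ι F) *ᵥ v = v) (hj : tr (m (ψ (swap 0 1))) = 0) : False := by
  classical
  obtain ⟨Y, hY⟩ : ∃ Y : Subgroup G, Y = ((eps.comp (MonoidHom.id (Perm (Fin 4)))).range).comap φ := ⟨_, rfl⟩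
  have hYmem : ∀ y, y ∈ Y ↔ ∃ x, eps x = φ y := by
    intro y; rw [hY]; exact Iff.rfl
  have hYact : ∀ y, act (φ y) d0 = d0 → y ∈ Y := fun y hy => (hYmem y).2 (exists_eps' (h.sign y) hy)
  have h1 : ∀ y : G, ∃ s : F, y ∈ Y → (m y : Matrix ι ι F) *ᵥ v = s • v := by
    intro y
    by_cases hy : y ∈ Y
    · obtain ⟨x, hx⟩ := (hYmem y).1 hy
      obtain ⟨k, c, -, -, -, hc⟩ := exists_scal_psi h hψ (x := x) hx.symm
      refine ⟨c, fun _ => ?_⟩
      rw [hc, Matrix.smul_mulVec, hv]
    · exact ⟨0, fun h2 => absurd h2 hy⟩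
  choose χ hχ using h1
  have huniq : ∀ y ∈ Y, ∀ c : F, (m y : Matrix ι ι F) *ᵥ v = c • v → χ y = c := by
    intro y hy c hcy
    have h3 := hχ y hy
    rw [hcy] at h3
    have h4 : (c - χ y) • v = 0 := by rw [sub_smul, h3, sub_self]
    exact (sub_eq_zero.1 ((smul_eq_zero.1 h4).resolve_right hv0)).symm
  have hψY : ∀ x, ψ x ∈ Y := fun x => (hYmem _).2 ⟨x, (hψ x).symm⟩
  have hχψ : ∀ x, χ (ψ x) = 1 := fun x => huniq _ (hψY x) _ (by rw [hv, one_smul])
  have hmul : ∀ a ∈ Y, ∀ b ∈ Y, χ (a * b) = χ a * χ b := by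
    intro a ha b hb
    apply huniq _ (mul_mem ha hb)
    rw [map_mul, Units.val_mul, ← Matrix.mulVec_mulVec, hχ b hb, Matrix.mulVec_smul, hχ a ha, smul_smul, mul_comm]
  -- representatives
  have hrex : ∀ d : Duad, ∃ g : G, act (φ g) d0 = d := by
    intro d
    obtain ⟨s, hs, hsd⟩ := act_trans d
    obtain ⟨g, hg⟩ := h.surj hs
    exact ⟨g, by rw [hg, hsd]⟩
  choose r hr using hrex
  obtain ⟨yy, hyy⟩ : ∃ yy : G → Duad → G, ∀ g d, yy g d = (r (act (φ g) d))⁻¹ * g * r d := ⟨_, fun _ _ => rfl⟩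
  have hyyY : ∀ g d, yy g d ∈ Y := by
    intro g d
    apply hYact
    rw [hyy, map_mul, map_mul, map_inv, act_mul, act_mul, hr]
    have h3 : act (φ (r (act (φ g) d)))⁻¹ (act (φ (r (act (φ g) d))) d0) = d0 := by
      rw [← act_mul, inv_mul_cancel, act_one]
    rw [hr] at h3
    exact h3
  let Mx : G → Matrix Duad Duad F := fun g => Matrix.of fun p q => if p = act (φ g) q then χ (yy g q) else 0
  have hMx : ∀ g p q, Mx g p q = if p = act (φ g) q then χ (yy g q) else 0 := fun _ _ _ => rfl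
  let B : Matrix ι Duad F := Matrix.of fun i q => ((m (r q) : Matrix ι ι F) *ᵥ v) i
  have hB : ∀ i q, B i q = ((m (r q) : Matrix ι ι F) *ᵥ v) i := fun _ _ => rfl
  have hint : ∀ g, (m g : Matrix ι ι F) * B = B * Mx g := by
    intro g
    ext i q
    rw [Matrix.mul_apply, Matrix.mul_apply]
    have e1 : ∑ k, (m g : Matrix ι ι F) i k * B k q = ((m g : Matrix ι ι F) *ᵥ ((m (r q) : Matrix ι ι F) *ᵥ v)) i := rfl
    rw [e1]
    simp only [hMx, mul_ite, mul_zero]
    rw [Finset.sum_ite_eq' Finset.univ (act (φ g) q), if_pos (Finset.mem_univ _), hB]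
    have e2 : g * r q = r (act (φ g) q) * yy g q := by rw [hyy]; group
    rw [Matrix.mulVec_mulVec, ← Units.val_mul, ← map_mul, e2, map_mul, Units.val_mul, ← Matrix.mulVec_mulVec,
      hχ _ (hyyY g q), Matrix.mulVec_smul, Pi.smul_apply, smul_eq_mul, mul_comm]
  have hMmul : ∀ a b, Mx (a * b) = Mx a * Mx b := by
    intro a b
    ext p q
    rw [Matrix.mul_apply]
    simp only [hMx, mul_ite, mul_zero]
    rw [Finset.sum_ite_eq' Finset.univ (act (φ b) q), if_pos (Finset.mem_univ _), map_mul, act_mul]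
    have e : yy (a * b) q = yy a (act (φ b) q) * yy b q := by
      rw [hyy, hyy, hyy, map_mul, act_mul]; group
    rw [e, hmul _ (hyyY _ _) _ (hyyY _ _), ite_mul, zero_mul]
  have hMscal : ∀ (k : G) (c : F), φ k = 1 → (m k : Matrix ι ι F) = c • (1 : Matrix ι ι F) → Mx k = c • (1 : Matrix Duad Duad F) := by
    intro k c hk hkc
    ext p q
    rw [hMx, hk, act_one, Matrix.smul_apply, Matrix.one_apply]
    by_cases hpq : p = q
    · rw [if_pos hpq, if_pos hpq, smul_eq_mul, mul_one]
      apply huniq _ (hyyY k q)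
      have e : yy k q = k := by
        rw [hyy, hk, act_one, mul_assoc, h.central hk, ← mul_assoc, inv_mul_cancel, one_mul]
      rw [e, hkc, Matrix.smul_mulVec, Matrix.one_mulVec]
    · rw [if_neg hpq, if_neg hpq, smul_zero]
  have hMone : Mx 1 = 1 := by
    rw [hMscal 1 1 (map_one φ) (by rw [map_one, Units.val_one, one_smul]), one_smul]
  -- `B` is surjective
  have hBsurj : LinearMap.range (Matrix.toLin' B) = ⊤ := by
    rcases h.irr.1 (LinearMap.range (Matrix.toLin' B)) (by
      rintro _ ⟨_, ⟨g, rfl⟩, rfl⟩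
      rintro _ ⟨_, ⟨a, rfl⟩, rfl⟩
      refine ⟨Mx g *ᵥ a, ?_⟩
      rw [Matrix.toLin'_apply, Matrix.toLin'_apply, Matrix.toLin'_apply, Matrix.mulVec_mulVec, Matrix.mulVec_mulVec, ← hint g]) with h3 | h3
    · exfalso
      have h4 : Matrix.toLin' B (Pi.single d0 1) = 0 := by
        rw [LinearMap.range_eq_bot.1 h3]; rfl
      rw [Matrix.toLin'_apply, Matrix.mulVec_single_one] at h4
      have h5 : (m (r d0) : Matrix ι ι F) *ᵥ v = 0 := by
        funext i
        exact congrFun h4 i
      apply hv0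
      have h6 := congrArg (fun w => ((m (r d0))⁻¹ : GL ι F).1 *ᵥ w) h5
      simp only [Matrix.mulVec_mulVec, Matrix.mulVec_zero, ← Units.val_mul, inv_mul_cancel, Units.val_one,
        Matrix.one_mulVec] at h6
      exact h6
    · exact h3
  obtain ⟨S, hS⟩ : ∃ S : Matrix Duad ι F, B * S = 1 := by
    obtain ⟨f, hf⟩ := (Matrix.toLin' B).exists_rightInverse_of_surjective hBsurj
    refine ⟨LinearMap.toMatrix' f, ?_⟩
    have h3 := congrArg LinearMap.toMatrix' hf
    rw [LinearMap.toMatrix'_comp, LinearMap.toMatrix'_toLin', LinearMap.toMatrix'_id] at h3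
    exact h3
  have hker : Module.finrank F (LinearMap.ker (Matrix.toLin' B)) ≤ 3 := by
    have h3 := (Matrix.toLin' B).finrank_range_add_finrank_ker
    rw [hBsurj, finrank_top, Module.finrank_fintype_fun_eq_card, Module.finrank_fintype_fun_eq_card, hn, card_duad] at h3
    omega
  obtain ⟨N, hN⟩ : ∃ N : Matrix Duad Duad F, N = 1 - S * B := ⟨_, rfl⟩
  have hBN : B * N = 0 := by
    rw [hN, Matrix.mul_sub, Matrix.mul_one, ← Matrix.mul_assoc, hS, Matrix.one_mul, sub_self]
  have hNX : ∀ X : Matrix Duad Duad F, B * X = 0 → N * X = X := by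
    intro X hX
    rw [hN, Matrix.sub_mul, Matrix.one_mul, Matrix.mul_assoc, hX, Matrix.mul_zero, sub_zero]
  have hBMN : ∀ g, B * (Mx g * N) = 0 := by
    intro g
    rw [← Matrix.mul_assoc, ← hint g, Matrix.mul_assoc, hBN, Matrix.mul_zero]
  have htrN : N.trace = 3 := by
    rw [hN, Matrix.trace_sub, Matrix.trace_one, Matrix.trace_mul_comm, hS, Matrix.trace_one, card_duad, hn]
    norm_num
  have htrMN : ∀ g, (Mx g * N).trace = (Mx g).trace - tr (m g) := by
    intro g
    rw [hN, Matrix.mul_sub, Matrix.mul_one, Matrix.trace_sub, ← Matrix.mul_assoc, Matrix.trace_mul_comm, ← Matrix.mul_assoc,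
      ← hint g, Matrix.mul_assoc, hS, Matrix.mul_one]
    rfl
  -- the involution
  obtain ⟨J, hJ⟩ : ∃ J, J = ψ (swap 0 1) := ⟨_, rfl⟩
  have hJJ : J * J = 1 := by rw [hJ, ← map_mul, show (swap 0 1 : Perm (Fin 4)) * swap 0 1 = 1 by decide, map_one]
  have hφJ : φ J = eps (swap 0 1) := by rw [hJ, hψ]
  have htrJ : (Mx J).trace = 3 := by
    have h3 : ∀ q, Mx J q q = if q = act (eps (swap 0 1)) q then 1 else 0 := by
      intro q
      rw [hMx, hφJ]
      by_cases hq : q = act (eps (swap 0 1)) q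
      · rw [if_pos hq, if_pos hq]
        obtain ⟨x, hx⟩ := (hYmem _).1 (hyyY J q)
        have e : yy J q = (r q)⁻¹ * J * r q := by rw [hyy, hφJ, ← hq]
        have e2 : yy J q * yy J q = 1 := by
          rw [e]
          calc (r q)⁻¹ * J * r q * ((r q)⁻¹ * J * r q) = (r q)⁻¹ * (J * J) * r q := by group
            _ = 1 := by rw [hJJ]; group
        have e3 : x * x = 1 := by
          apply eps_injective
          rw [map_mul, hx, ← map_mul, e2, map_one, map_one]
        have e4 : yy J q = ψ x := by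
          apply h.inv_unique hc
          · rw [← hx, hψ]
          · exact e2
          · rw [← map_mul, e3, map_one]
        rw [e4, hχψ]
      · rw [if_neg hq, if_neg hq]
    show ∑ q, Mx J q q = 3
    rw [Finset.sum_congr rfl (fun q _ => h3 q), Finset.sum_boole, fixed_three]
    norm_num
  have hMJ : Mx J * Mx J = 1 := by rw [← hMmul, hJJ, hMone]
  have hJN : Mx J * N = N := by
    obtain ⟨D, hD⟩ : ∃ D : Matrix Duad Duad F, D = N - Mx J * N := ⟨_, rfl⟩
    have hBD : B * D = 0 := by rw [hD, Matrix.mul_sub, hBN, hBMN, sub_zero]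
    have hND := hNX D hBD
    have hMD : Mx J * D = -D := by
      rw [hD, Matrix.mul_sub, ← Matrix.mul_assoc, hMJ, Matrix.one_mul, neg_sub]
    have hDD : D * D = (2 : F) • D := by
      conv_lhs => rw [show D * D = (N - Mx J * N) * D by rw [← hD]]
      rw [Matrix.sub_mul, Matrix.mul_assoc, hND, hMD, sub_neg_eq_add, two_smul]
    have htr : D.trace = 0 := by
      rw [hD, Matrix.trace_sub, htrN, htrMN, htrJ, hJ, hj]
      norm_num
    have h3 := eq_zero_of_idem p hp5 hDD htr hBD hker
    rw [hD, sub_eq_zero] at h3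
    exact h3.symm
  -- the elements acting trivially on the relations
  let T : Subgroup G :=
    { carrier := {g | Mx g * N = N}
      mul_mem' := by
        intro a b ha hb
        show Mx (a * b) * N = N
        rw [hMmul, Matrix.mul_assoc, show Mx b * N = N from hb, show Mx a * N = N from ha]
      one_mem' := by
        show Mx 1 * N = N
        rw [hMone, Matrix.one_mul]
      inv_mem' := by
        intro a ha
        show Mx a⁻¹ * N = N
        have h3 : Mx a⁻¹ * (Mx a * N) = N := by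
          rw [← Matrix.mul_assoc, ← hMmul, inv_mul_cancel, hMone, Matrix.one_mul]
        rwa [show Mx a * N = N from ha] at h3 }
  have hTmem : ∀ g, g ∈ T ↔ Mx g * N = N := fun g => Iff.rfl
  have hTn : T.Normal := by
    refine ⟨fun g hg x => ?_⟩
    rw [hTmem] at hg ⊢
    have h3 : N * (Mx x⁻¹ * N) = Mx x⁻¹ * N := hNX _ (hBMN _)
    rw [hMmul, hMmul, Matrix.mul_assoc, Matrix.mul_assoc, ← h3, ← Matrix.mul_assoc (Mx g), hg, h3, ← Matrix.mul_assoc,
      ← hMmul, mul_inv_cancel, hMone, Matrix.one_mul]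
  have hJT : J ∈ T := hJN
  have hTtop : T = ⊤ := by
    have hsimple : IsSimpleGroup (alternatingGroup (Fin 6)) := alternatingGroup.isSimpleGroup (by simp)
    let f : G →* alternatingGroup (Fin 6) := φ.codRestrict _ (fun g => h.sign g)
    have hf : Function.Surjective f := by
      rintro ⟨s, hs⟩
      obtain ⟨g, hg⟩ := h.surj hs
      exact ⟨g, Subtype.ext hg⟩
    have h3 : T.map f = ⊤ := by
      rcases hsimple.eq_bot_or_eq_top_of_normal _ (hTn.map f hf) with h4 | h4
      · exfalso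
        have h5 := Subgroup.mem_map_of_mem f hJT
        rw [h4, Subgroup.mem_bot] at h5
        have h6 : φ J = 1 := congrArg Subtype.val h5
        rw [hφJ] at h6
        have h7 := eps_injective (h6.trans (map_one eps).symm)
        revert h7
        decide
      · exact h4
    have h4 : commutator G ≤ T := by
      rw [commutator_def, Subgroup.commutator_le]
      have h5 : ∀ g : G, ∃ t ∈ T, ∃ k, φ k = 1 ∧ g = k * t := by
        intro g
        obtain ⟨t, ht, htg⟩ : f g ∈ T.map f := by rw [h3]; exact Subgroup.mem_top _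
        have h6 : φ t = φ g := congrArg Subtype.val htg
        exact ⟨t, ht, g * t⁻¹, by rw [map_mul, map_inv, h6, mul_inv_cancel], by group⟩
      intro a _ b _
      obtain ⟨t, ht, k, hk, rfl⟩ := h5 a
      obtain ⟨t', ht', k', hk', rfl⟩ := h5 b
      have c1 := h.central hk
      have c2 := h.central hk'
      have e : ⁅k * t, k' * t'⁆ = ⁅t, t'⁆ := by
        rw [commutatorElement_def, commutatorElement_def]
        have e1 : k * t * (k' * t') = k' * t' * (t'⁻¹ * t * t') * k := by
          calc k * t * (k' * t') = k * (t * k') * t' := by group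
            _ = k * (k' * t) * t' := by rw [c2]
            _ = k * (k' * t * t') := by group
            _ = (k' * t * t') * k := c1 _
            _ = k' * t' * (t'⁻¹ * t * t') * k := by group
        calc k * t * (k' * t') * (k * t)⁻¹ * (k' * t')⁻¹
            = (k * t) * (k' * t') * (t⁻¹ * k⁻¹) * (t'⁻¹ * k'⁻¹) := by group
          _ = k * (t * k') * (t' * t⁻¹ * k⁻¹ * t'⁻¹ * k'⁻¹) := by group
          _ = k * (k' * t) * (t' * t⁻¹ * k⁻¹ * t'⁻¹ * k'⁻¹) := by rw [c2]
          _ = k * (k' * (t * t' * t⁻¹)) * k⁻¹ * t'⁻¹ * k'⁻¹ := by group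
          _ = (k' * (t * t' * t⁻¹)) * k * k⁻¹ * t'⁻¹ * k'⁻¹ := by rw [c1]
          _ = k' * (t * t' * t⁻¹ * t'⁻¹) * k'⁻¹ := by group
          _ = (t * t' * t⁻¹ * t'⁻¹) * k' * k'⁻¹ := by rw [c2]
          _ = t * t' * t⁻¹ * t'⁻¹ := by group
      rw [e]
      exact mul_mem (mul_mem (mul_mem ht ht') (inv_mem ht)) (inv_mem ht')
    rw [h.perf] at h4
    exact top_le_iff.1 h4
  -- a central element
  obtain ⟨z, hz⟩ : ∃ z : φ.ker, z ≠ 1 := by
    by_contra hcon
    push Not at hcon
    have h3 : Nat.card φ.ker = 1 := by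
      rw [Nat.card_eq_one_iff_unique]
      exact ⟨⟨fun a b => (hcon a).trans (hcon b).symm⟩, ⟨1⟩⟩
    omega
  obtain ⟨c, hcc⟩ := h.scal z.2
  have hzT : (z : G) ∈ T := by rw [hTtop]; exact Subgroup.mem_top _
  rw [hTmem, hMscal _ _ z.2 hcc, Matrix.smul_mul, Matrix.one_mul] at hzT
  have h3 : ((c : F) - 1) • N = 0 := by rw [sub_smul, one_smul, hzT, sub_self]
  rcases smul_eq_zero.1 h3 with h4 | h4
  · rw [sub_eq_zero] at h4
    rw [h4] at hcc
    exact hz (Subtype.ext (h.eq_one_of_scal hcc))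
  · rw [h4, Matrix.trace_zero] at htrN
    have := cast_ne_zero (F := F) (p := p) (n := 3) (prime_not_dvd hp.out hp5 0 1)
    exact this (by exact_mod_cast htrN.symm)

/-- **`3·A₆` has no absolutely irreducible representation of degree 12 in characteristic `p ≥ 5`.** -/
theorem no_three_odd [Finite F] [Finite G] (h : Cov m φ) (p : ℕ) [Fact p.Prime] [CharP F p] (hp : 5 ≤ p)
    (hk : Nat.card φ.ker = 3) (hn : Fintype.card ι = 12) : False := by
  obtain ⟨ψ, hψ⟩ := exists_psi h hk
  rcases cases h p hp hk hn hψ with ⟨v, hv0, hv⟩ | ⟨⟨v, hv0, hv⟩, hj⟩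
  · exact no_sign h p hp hk hn hψ hv0 hv
  · exact no_triv h p hp hk hn hψ hv0 hv hj

end Cfsg.Agent.H269.ThreeA6
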